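import Cfsg.Agent.H436.Core3720

/-!
# Simple groups whose order is a power of 20160
-/

set_option autoImplicit false

namespace Cfsg.Agent.H794.Ord20160

open Cfsg Cfsg.Agent.OrdDiv Cfsg.Agent.H436 Cfsg.Agent.H436.Core3720

theorem primeFactors_pow {c : ℕ} (hc : c ≠ 0) : (20160 ^ c).primeFactors = {2, 3, 5, 7} := by
  rw [Nat.primeFactors_pow _ hc]
  have h : (20160 : ℕ) = 2 ^ 6 * (3 ^ 2 * (5 * 7)) := by norm_num
  rw [h, Nat.primeFactors_mul (by norm_num) (by norm_num), Nat.primeFactors_mul (by norm_num) (by norm_num),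
    Nat.primeFactors_mul (by norm_num) (by norm_num), Nat.primeFactors_prime_pow (by norm_num) Nat.prime_two,
    Nat.primeFactors_prime_pow (by norm_num) Nat.prime_three, Nat.Prime.primeFactors Nat.prime_five,
    Nat.Prime.primeFactors (by norm_num : Nat.Prime 7)]
  rfl

theorem cases_pow {c n : ℕ} (hc : c ≠ 0) (h : n = 20160 ^ c) (hn : n < 400000000) : n = 20160 := by
  obtain ⟨d, rfl⟩ : ∃ d, c = d + 1 := ⟨c - 1, by omega⟩
  cases d with
  | zero => simpa using h
  | succ d =>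
    exfalso
    have h1 : 20160 ^ 2 ≤ 20160 ^ (d + 1 + 1) := Nat.pow_le_pow_right (by norm_num) (by omega)
    rw [h] at hn
    omega

/-- **A simple group whose order is a power of 20160 is `A₈` or `PSL₃(4)`.** -/
theorem core {G : Type*} [Group G] [Finite G] {g : Grp} (hg : IsNamed g G) {c : ℕ} (hc : c ≠ 0)
    (h : Nat.card G = 20160 ^ c) :
    Nonempty (G ≃* ↥(alternatingGroup (Fin 8))) ∨
    (∃ (F : Type) (_ : Field F) (_ : Fintype F), Fintype.card F = 4 ∧
      Nonempty (G ≃* Matrix.ProjectiveSpecialLinearGroup (Fin 3) F)) := by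
  have hpf : (Nat.card G).primeFactors = {2, 3, 5, 7} := by rw [h]; exact primeFactors_pow hc
  rcases k_four hg (by rw [hpf]; decide) with ⟨q, rfl⟩ | ⟨q, rfl⟩ | h1
  · exfalso
    obtain ⟨-, -, hq⟩ := hg.cond
    have hf := psl_two_factors hq.two_le hg.eq
    rw [hf] at hpf
    have h49 := psl_case hq hpf
    have ho := hg.ord
    rw [h49] at ho
    have h2 : ordN (.psl 2 49) = 58800 := by decide
    rw [h2] at ho
    have h3 := cases_pow hc h (by rw [ho]; norm_num)
    omega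
  · exfalso
    obtain ⟨m, hm, rfl⟩ := hg.cond
    have h2 : 1 * Nat.card G = (2 ^ (2 * m + 1)) ^ 2 * ((2 ^ (2 * m + 1) - 1) * ((2 ^ (2 * m + 1)) ^ 2 + 1)) := hg.eq
    have h3 : 3 ∣ Nat.card G := Nat.dvd_of_mem_primeFactors (by rw [hpf]; decide)
    rw [one_mul] at h2
    rw [h2] at h3
    have hq : 2 ^ (2 * m + 1) % 3 = 2 := by
      rw [pow_succ, pow_mul, Nat.mul_mod, Nat.pow_mod]
      norm_num
    obtain ⟨k, hk⟩ : ∃ k, 2 ^ (2 * m + 1) = 3 * k + 2 := ⟨2 ^ (2 * m + 1) / 3, by omega⟩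
    rcases Nat.prime_three.dvd_mul.1 h3 with h4 | h4
    · have := (Nat.prime_dvd_prime_iff_eq Nat.prime_three Nat.prime_two).1
        (Nat.prime_three.dvd_of_dvd_pow (Nat.prime_three.dvd_of_dvd_pow h4))
      omega
    · rcases Nat.prime_three.dvd_mul.1 h4 with h5 | h5
      · omega
      · rw [hk, show (3 * k + 2) ^ 2 + 1 = 3 * (3 * k ^ 2 + 4 * k + 1) + 2 by ring] at h5
        omega
  · have h2 : g ∈ KFL.filter fun g => tst (ordN g) := by
      rw [List.mem_filter]
      refine ⟨h1, ?_⟩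
      rw [← hg.ord]
      exact tst_spec hpf
    have ho := hg.ord
    rw [filter_eq] at h2
    have h3 : ∀ g ∈ [Grp.alt 7, .alt 8, .alt 9, .alt 10, .psl 3 4, .psl 4 2, .psp 2 7, .psp 3 2, .psu 3 5,
        .psu 4 3, .oplus 4 2, .j2], ordN g < 400000000 := by decide
    have h4 : ordN g = 20160 := by
      rw [← ho]
      exact cases_pow hc h (by rw [ho]; exact h3 g h2)
    have h5 : g ∈ ([Grp.alt 7, .alt 8, .alt 9, .alt 10, .psl 3 4, .psl 4 2, .psp 2 7, .psp 3 2, .psu 3 5,
        .psu 4 3, .oplus 4 2, .j2].filter fun g => ordN g == 20160) := by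
      rw [List.mem_filter]
      exact ⟨h2, by rw [h4]; rfl⟩
    rw [show ([Grp.alt 7, .alt 8, .alt 9, .alt 10, .psl 3 4, .psl 4 2, .psp 2 7, .psp 3 2, .psu 3 5,
        .psu 4 3, .oplus 4 2, .j2].filter fun g => ordN g == 20160) = [.alt 8, .psl 3 4, .psl 4 2] by decide] at h5
    simp only [List.mem_cons, List.not_mem_nil, or_false] at h5
    have hr := hg.real
    rcases h5 with rfl | rfl | rfl
    · exact Or.inl hr
    · exact Or.inr hr
    · obtain ⟨F, _, _, hF, ⟨e⟩⟩ := hr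
      obtain ⟨e'⟩ := S0256.result hF
      exact Or.inl ⟨e.trans e'⟩

end Cfsg.Agent.H794.Ord20160
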